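import Mathlib

/-!
# Camina pairs of odd nilpotent groups with an endomorphism inverting the top quotient
-/

set_option autoImplicit false
open scoped commutatorElement
open Subgroup

namespace Cfsg.Agent.NCE

variable {Q : Type*} [Group Q]

/-- `K` is a proper normal subgroup with abelian quotient, every coset outside `K` lies in one
conjugacy class, and `τ` inverts `Q / K`. -/
structure Hyp (K : Subgroup Q) (τ : Q →* Q) : Prop where
  normal : K.Normal
  ex : ∃ x, x ∉ K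
  comm : ∀ x y : Q, ⁅x, y⁆ ∈ K
  inv : ∀ x, x * τ x ∈ K
  cam : ∀ x ∉ K, ∀ k ∈ K, ∃ y, y * x * y⁻¹ = x * k

namespace Hyp

variable {K : Subgroup Q} {τ : Q →* Q} (h : Hyp K τ)
include h

theorem map_mem {k : Q} (hk : k ∈ K) : τ k ∈ K := by
  have := K.mul_mem (K.inv_mem hk) (h.inv k)
  simpa using this

theorem map_le : K.map τ ≤ K := by
  rintro _ ⟨k, hk, rfl⟩
  exact h.map_mem hk

theorem quot (B : Subgroup Q) [B.Normal] (hB : B ≤ K) (hτ : B ≤ B.comap τ) :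
    Hyp (K.map (QuotientGroup.mk' B)) (QuotientGroup.map B B τ hτ) := by
  have hN := h.normal
  have hmem : ∀ x : Q, (x : Q ⧸ B) ∈ K.map (QuotientGroup.mk' B) ↔ x ∈ K := by
    intro x
    constructor
    · rintro ⟨k, hk, hkx⟩
      have h1 : k⁻¹ * x ∈ B := QuotientGroup.eq.mp hkx
      simpa using K.mul_mem hk (hB h1)
    · intro hx
      exact ⟨x, hx, rfl⟩
  refine ⟨hN.map _ (QuotientGroup.mk'_surjective B), ?_, ?_, ?_, ?_⟩
  · obtain ⟨x, hx⟩ := h.ex
    exact ⟨x, fun h' => hx ((hmem x).mp h')⟩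
  · intro x y
    obtain ⟨x, rfl⟩ := QuotientGroup.mk_surjective x
    obtain ⟨y, rfl⟩ := QuotientGroup.mk_surjective y
    exact ⟨⁅x, y⁆, h.comm x y, map_commutatorElement (QuotientGroup.mk' B) x y⟩
  · intro x
    obtain ⟨x, rfl⟩ := QuotientGroup.mk_surjective x
    exact ⟨x * τ x, h.inv x, rfl⟩
  · intro x hx k hk
    obtain ⟨x, rfl⟩ := QuotientGroup.mk_surjective x
    obtain ⟨k, hk, rfl⟩ := hk
    obtain ⟨y, hy⟩ := h.cam x (fun h' => hx ((hmem x).mpr h')) k hk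
    exact ⟨y, by simpa using congrArg (QuotientGroup.mk' B) hy⟩

theorem fix_of_central (hc : K ≤ center Q) {k : Q} (hk : k ∈ K) : τ k = k := by
  obtain ⟨x, hx⟩ := h.ex
  obtain ⟨y, hy⟩ := h.cam x hx k hk
  have h0 := mem_center_iff.mp (hc (h.inv x))
  have h1 := mem_center_iff.mp (hc (h.inv y))
  have h2 := mem_center_iff.mp (hc hk)
  set k0 := x * τ x with hk0
  set k1 := y * τ y with hk1
  have ex : τ x = x⁻¹ * k0 := by rw [hk0]; group
  have ey : τ y = y⁻¹ * k1 := by rw [hk1]; group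
  have ek : k = x⁻¹ * (y * x * y⁻¹) := by rw [hy]; group
  have e1 : τ k = x * y⁻¹ * x⁻¹ * y := by
    conv_lhs => rw [ek]
    simp only [map_mul, map_inv, ex, ey]
    calc (x⁻¹ * k0)⁻¹ * (y⁻¹ * k1 * (x⁻¹ * k0) * (y⁻¹ * k1)⁻¹)
        = k0⁻¹ * (x * y⁻¹ * (k1 * (x⁻¹ * k0)) * k1⁻¹ * y) := by group
      _ = k0⁻¹ * (x * y⁻¹ * ((x⁻¹ * k0) * k1) * k1⁻¹ * y) := by rw [h1]
      _ = k0⁻¹ * ((x * y⁻¹ * x⁻¹) * k0) * y := by group
      _ = k0⁻¹ * (k0 * (x * y⁻¹ * x⁻¹)) * y := by rw [h0]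
      _ = _ := by group
  rw [e1]
  calc x * y⁻¹ * x⁻¹ * y = y⁻¹ * (y * x * y⁻¹) * x⁻¹ * y := by group
    _ = y⁻¹ * (x * k) * x⁻¹ * y := by rw [hy]
    _ = y⁻¹ * (k * x) * x⁻¹ * y := by rw [h2 x]
    _ = y⁻¹ * k * y := by group
    _ = k := by rw [h2 y⁻¹]; group

theorem exists_inverted [Finite Q] (hodd : Odd (Nat.card Q)) (hc : K ≤ center Q) (x : Q) :
    ∃ k ∈ K, x * k * τ (x * k) = 1 := by
  obtain ⟨m, hm⟩ := hodd
  have hk0 := h.inv x
  set k0 := x * τ x with hk0'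
  have hk : k0 ^ m ∈ K := K.pow_mem hk0 m
  refine ⟨k0 ^ m, hk, ?_⟩
  rw [map_mul, h.fix_of_central hc hk]
  have h2 := mem_center_iff.mp (hc hk)
  calc x * k0 ^ m * (τ x * k0 ^ m) = x * (k0 ^ m * τ x) * k0 ^ m := by group
    _ = x * (τ x * k0 ^ m) * k0 ^ m := by rw [h2 (τ x)]
    _ = k0 * k0 ^ m * k0 ^ m := by rw [← mul_assoc x]
    _ = k0 ^ (2 * m + 1) := by group
    _ = 1 := by rw [← hm, pow_card_eq_one']

theorem card_lt_index [Finite Q] (hc : K ≤ center Q) : Nat.card K < K.index := by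
  obtain ⟨x, hx⟩ := h.ex
  have hmem : ∀ y, x⁻¹ * y * x * y⁻¹ ∈ K := fun y => by
    simpa [commutatorElement_def] using h.comm x⁻¹ y
  let φ : Q →* Q := MonoidHom.mk' (fun y => x⁻¹ * y * x * y⁻¹) fun y y' => by
    have h2 := mem_center_iff.mp (hc (hmem y')) y⁻¹
    calc x⁻¹ * (y * y') * x * (y * y')⁻¹
        = x⁻¹ * y * x * ((x⁻¹ * y' * x * y'⁻¹) * y⁻¹) := by group
      _ = x⁻¹ * y * x * (y⁻¹ * (x⁻¹ * y' * x * y'⁻¹)) := by rw [h2]
      _ = _ := by group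
  have hr : K ≤ φ.range := by
    intro k hk
    obtain ⟨y, hy⟩ := h.cam x hx k hk
    refine ⟨y, ?_⟩
    change x⁻¹ * y * x * y⁻¹ = k
    rw [mul_assoc, mul_assoc, ← mul_assoc y, hy]; group
  have hk : K < φ.ker := by
    refine lt_of_le_of_ne (fun k hk => ?_) fun he => hx ?_
    · change x⁻¹ * k * x * k⁻¹ = 1
      rw [mem_center_iff.mp (hc hk) x⁻¹]; group
    · rw [he]
      change x⁻¹ * x * x * x⁻¹ = 1
      group
  have h1 : Nat.card K ≤ φ.ker.index := by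
    rw [index_ker]
    exact card_le_of_le hr
  have h2 := relIndex_mul_index hk.le
  have h3 : K.relIndex φ.ker ≠ 1 := fun h' => hk.not_ge (relIndex_eq_one.mp h')
  have h4 : K.index ≠ 0 := index_ne_zero_of_finite
  have h5 : K.relIndex φ.ker ≠ 0 := fun h' => h4 (by rw [← h2, h', zero_mul])
  have h6 : φ.ker.index ≠ 0 := index_ne_zero_of_finite
  have h7 : 2 ≤ K.relIndex φ.ker := by omega
  nlinarith [Nat.pos_of_ne_zero h6]

end Hyp

theorem card_le_of_injective_hom {I X : Type*} [Finite I] [Group X] [Finite X]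
    (Φ : I → (X →* ℂ)) (hΦ : Function.Injective Φ) : Nat.card I ≤ Nat.card X := by
  have := Fintype.ofFinite I
  have := Fintype.ofFinite X
  have h := (linearIndependent_monoidHom X ℂ).comp Φ hΦ
  have h2 := h.fintype_card_le_finrank
  simpa [Nat.card_eq_fintype_card] using h2

namespace Hyp

variable {K : Subgroup Q} {τ : Q →* Q} (h : Hyp K τ)
include h

theorem comm_le : ⁅K, (⊤ : Subgroup Q)⁆ ≤ (⁅K, (⊤ : Subgroup Q)⁆).comap τ := by
  rw [← map_le_iff_le_comap, map_commutator]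
  exact commutator_mono h.map_le le_top

theorem eq_bot_of_central [Finite Q] (hodd : Odd (Nat.card Q))
    (hc : ⁅K, (⊤ : Subgroup Q)⁆ ≤ center Q) : ⁅K, (⊤ : Subgroup Q)⁆ = ⊥ := by
  classical
  have hN := h.normal
  set A := ⁅K, (⊤ : Subgroup Q)⁆ with hA
  have hAK : A ≤ K := commutator_le_left K ⊤
  have hq := h.quot A hAK h.comm_le
  have hmemA : ∀ x : Q, ∀ k ∈ K, ⁅x, k⁆ ∈ A := fun x k hk => by
    rw [hA, commutator_comm]
    exact commutator_mem_commutator (mem_top x) hk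
  have hqc : K.map (QuotientGroup.mk' A) ≤ center (Q ⧸ A) := by
    rintro _ ⟨k, hk, rfl⟩
    rw [mem_center_iff]
    intro x
    obtain ⟨x, rfl⟩ := QuotientGroup.mk_surjective x
    rw [← commutatorElement_eq_one_iff_mul_comm]
    exact (map_commutatorElement (QuotientGroup.mk' A) x k).symm.trans
      ((QuotientGroup.eq_one_iff _).mpr (hmemA x k hk))
  have hoddq : Odd (Nat.card (Q ⧸ A)) := hodd.of_dvd_nat (card_quotient_dvd_card A)
  have hfix : ∀ k ∈ K, k⁻¹ * τ k ∈ A := fun k hk => by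
    have := hq.fix_of_central hqc (k := (k : Q ⧸ A)) ⟨k, hk, rfl⟩
    exact QuotientGroup.eq.mp this.symm
  have hinv : ∀ x, ∃ k ∈ K, x * k * τ (x * k) ∈ A := fun x => by
    obtain ⟨_, ⟨k, hk, rfl⟩, h1⟩ := hq.exists_inverted hoddq hqc (x : Q ⧸ A)
    exact ⟨k, hk, (QuotientGroup.eq_one_iff _).mp h1⟩
  have hlt : A.relIndex K < K.index := by
    have h1 := hq.card_lt_index hqc
    rw [index_map_eq _ (QuotientGroup.mk'_surjective A) (by simpa using hAK),
      ← relIndex_ker, QuotientGroup.ker_mk'] at h1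
    exact h1
  -- bilinearity
  have hz : ∀ x : Q, ∀ k ∈ K, ∀ y, y * ⁅x, k⁆ = ⁅x, k⁆ * y := fun x k hk =>
    mem_center_iff.mp (hc (hmemA x k hk))
  have hR : ∀ x : Q, ∀ k ∈ K, ∀ k' ∈ K, ⁅x, k * k'⁆ = ⁅x, k⁆ * ⁅x, k'⁆ := by
    intro x k hk k' hk'
    calc ⁅x, k * k'⁆ = ⁅x, k⁆ * (k * ⁅x, k'⁆) * k⁻¹ := by
          simp only [commutatorElement_def]; group
      _ = _ := by rw [hz x k' hk' k]; group
  have hL : ∀ x y : Q, ∀ k ∈ K, ⁅x * y, k⁆ = ⁅x, k⁆ * ⁅y, k⁆ := by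
    intro x y k hk
    calc ⁅x * y, k⁆ = (x * ⁅y, k⁆) * x⁻¹ * ⁅x, k⁆ := by
          simp only [commutatorElement_def]; group
      _ = ⁅y, k⁆ * ⁅x, k⁆ := by rw [hz y k hk x]; group
      _ = _ := hz x k hk _
  have hLinv : ∀ x : Q, ∀ k ∈ K, ⁅x⁻¹, k⁆ = ⁅x, k⁆⁻¹ := by
    intro x k hk
    rw [eq_inv_iff_mul_eq_one, ← hL _ _ k hk]
    simp
  have hA0 : ∀ x : Q, ∀ a ∈ A, ⁅x, a⁆ = 1 := fun x a ha =>
    commutatorElement_eq_one_iff_mul_comm.mpr (mem_center_iff.mp (hc ha) x)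
  have hK0 : ∀ k ∈ K, ∀ k' ∈ K, ⁅k, k'⁆ = 1 := by
    intro k hk k' hk'
    obtain ⟨x, hx⟩ := h.ex
    obtain ⟨y, hy⟩ := h.cam x hx k hk
    have ek : k = x⁻¹ * (y * x * y⁻¹) := by rw [hy]; group
    rw [ek, hL _ _ _ hk', hL _ _ _ hk', hL _ _ _ hk', hLinv _ _ hk', hLinv _ _ hk',
      hz x k' hk' ⁅y, k'⁆]
    group
  have hτA : ∀ a ∈ A, τ a = a⁻¹ := by
    let S : Subgroup Q :=
      { carrier := {a | a ∈ center Q ∧ τ a = a⁻¹}
        mul_mem' := by
          rintro a b ⟨ha, ha'⟩ ⟨hb, hb'⟩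
          refine ⟨mul_mem ha hb, ?_⟩
          rw [map_mul, ha', hb', mul_inv_rev, mem_center_iff.mp ((center Q).inv_mem ha)]
        one_mem' := ⟨one_mem _, by simp⟩
        inv_mem' := by
          rintro a ⟨ha, ha'⟩
          exact ⟨inv_mem ha, by rw [map_inv, ha']⟩ }
    have hS : A ≤ S := by
      rw [hA, commutator_comm, commutator_le]
      intro y _ k hk
      refine ⟨hc (hmemA y k hk), ?_⟩
      have e1 : τ y = y⁻¹ * (y * τ y) := by group
      have e2 : τ k = k * (k⁻¹ * τ k) := by group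
      rw [map_commutatorElement, e1, hL _ _ _ (h.map_mem hk), hK0 _ (h.inv y) _ (h.map_mem hk),
        mul_one, e2, hR _ _ hk _ (hAK (hfix k hk)), hA0 _ _ (hfix k hk), mul_one, hLinv _ _ hk]
    exact fun a ha => (hS ha).2
  by_contra hne
  obtain ⟨a, ha, ha1⟩ : ∃ a ∈ A, a ≠ 1 := by
    by_contra hcon
    push Not at hcon
    exact hne ((eq_bot_iff_forall _).mpr hcon)
  letI : CommGroup (center Q) :=
    { (inferInstance : Group (center Q)) with
      mul_comm := fun a b => Subtype.ext (mem_center_iff.mp b.2 a) }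
  have : NeZero (Monoid.exponent (center Q) : ℂ) :=
    ⟨Nat.cast_ne_zero.mpr Monoid.exponent_ne_zero_of_finite⟩
  obtain ⟨f, hf⟩ := CommGroup.exists_apply_ne_one_of_hasEnoughRootsOfUnity (center Q) ℂ
    (a := ⟨a, hc ha⟩) (fun h' => ha1 (congrArg Subtype.val h'))
  let c : Q → K → center Q := fun x k => ⟨⁅x, (k : Q)⁆, hc (hmemA x k k.2)⟩
  let F : Q → (K →* ℂ) := fun x =>
    { toFun := fun k => (f (c x k) : ℂ)
      map_one' := by
        have : c x 1 = 1 := Subtype.ext (by simp [c])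
        simp [this]
      map_mul' := fun k k' => by
        have : c x (k * k') = c x k * c x k' := Subtype.ext (hR x k k.2 k' k'.2)
        simp [this] }
  have hF : ∀ x, ∀ k ∈ A.subgroupOf K, F x k = 1 := by
    intro x k hk
    have : c x k = 1 := Subtype.ext (hA0 x k hk)
    simp [F, this]
  have hFne : ∀ x, x ∉ K → ∃ k : K, f (c x k) ≠ 1 := by
    intro x0 hx0
    obtain ⟨k0, hk0, h0⟩ := hinv x0
    set x := x0 * k0 with hx'
    have hx : x ∉ K := fun h' => hx0 (by simpa [hx'] using K.mul_mem h' (K.inv_mem hk0))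
    obtain ⟨y, hy⟩ := h.cam x hx a (hAK ha)
    have hk1 := h.inv y
    have h0c := mem_center_iff.mp (hc h0)
    have hac := mem_center_iff.mp (hc ha)
    set a1 := x * τ x with ha1'
    set k1 := y * τ y with hk1'
    have ex : τ x = x⁻¹ * a1 := by rw [ha1']; group
    have ey : τ y = y⁻¹ * k1 := by rw [hk1']; group
    have ek : a = x⁻¹ * (y * x * y⁻¹) := by rw [hy]; group
    have e0 : x * y⁻¹ * x⁻¹ * y = a := by
      calc x * y⁻¹ * x⁻¹ * y = y⁻¹ * (y * x * y⁻¹) * x⁻¹ * y := by group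
        _ = y⁻¹ * (x * a) * x⁻¹ * y := by rw [hy]
        _ = y⁻¹ * (a * x) * x⁻¹ * y := by rw [hac x]
        _ = y⁻¹ * a * y := by group
        _ = a := by rw [hac y⁻¹]; group
    have e1 : τ a = ⁅x, k1⁆ * a := by
      conv_lhs => rw [ek]
      simp only [map_mul, map_inv, ex, ey]
      calc (x⁻¹ * a1)⁻¹ * (y⁻¹ * k1 * (x⁻¹ * a1) * (y⁻¹ * k1)⁻¹)
          = a1⁻¹ * ((x * y⁻¹ * k1 * x⁻¹) * a1) * k1⁻¹ * y := by group
        _ = a1⁻¹ * (a1 * (x * y⁻¹ * k1 * x⁻¹)) * k1⁻¹ * y := by rw [h0c]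
        _ = (x * y⁻¹ * x⁻¹) * ⁅x, k1⁆ * y := by simp only [commutatorElement_def]; group
        _ = ⁅x, k1⁆ * (x * y⁻¹ * x⁻¹) * y := by rw [hz x k1 hk1]
        _ = ⁅x, k1⁆ * (x * y⁻¹ * x⁻¹ * y) := by group
        _ = _ := by rw [e0]
    have e2 : ⁅x0, k1⁆ = a⁻¹ * a⁻¹ := by
      have : ⁅x, k1⁆ = ⁅x0, k1⁆ := by rw [hx', hL _ _ _ hk1, hK0 _ hk0 _ hk1, mul_one]
      rw [hτA a ha] at e1
      rw [← this]
      exact eq_mul_inv_of_mul_eq e1.symm
    refine ⟨⟨k1, hk1⟩, fun h' => hf ?_⟩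
    have e3 : c x0 ⟨k1, hk1⟩ = (⟨a, hc ha⟩ : center Q)⁻¹ * (⟨a, hc ha⟩ : center Q)⁻¹ :=
      Subtype.ext e2
    rw [e3, map_mul, map_inv, ← mul_inv, inv_eq_one] at h'
    obtain ⟨m, hm⟩ := hodd
    have e4 : (⟨a, hc ha⟩ : center Q) ^ (2 * m + 1) = 1 :=
      Subtype.ext (by rw [← hm]; simp)
    have e5 := congrArg f e4
    rw [map_pow, map_one, pow_succ, pow_mul, pow_two, h', one_pow, one_mul] at e5
    exact e5
  let Φ : Q ⧸ K → (K ⧸ A.subgroupOf K →* ℂ) := fun q =>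
    QuotientGroup.lift (A.subgroupOf K) (F q.out) (hF q.out)
  have hΦ : Function.Injective Φ := by
    intro q q' hqq
    rw [← q.out_eq, ← q'.out_eq]
    refine QuotientGroup.eq.mpr ?_
    by_contra hx
    obtain ⟨k, hk⟩ := hFne _ hx
    have e1 : F q.out k = F q'.out k := DFunLike.congr_fun hqq (k : K ⧸ A.subgroupOf K)
    have e2 : f (c q.out k) = f (c q'.out k) := Units.ext e1
    have e3 : c (q.out⁻¹ * q'.out) k = (c q.out k)⁻¹ * c q'.out k :=
      Subtype.ext (by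
        change ⁅q.out⁻¹ * q'.out, (k : Q)⁆ = ⁅q.out, (k : Q)⁆⁻¹ * ⁅q'.out, (k : Q)⁆
        rw [hL _ _ _ k.2, hLinv _ _ k.2])
    apply hk
    rw [e3, map_mul, map_inv, e2, inv_mul_cancel]
  have := card_le_of_injective_hom Φ hΦ
  exact absurd this (not_le.mpr hlt)

theorem le_center [Finite Q] [Group.IsNilpotent Q] (hodd : Odd (Nat.card Q)) :
    K ≤ center Q := by
  have hN := h.normal
  set A := ⁅K, (⊤ : Subgroup Q)⁆ with hA
  set B := ⁅A, (⊤ : Subgroup Q)⁆ with hB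
  have hBK : B ≤ K := (commutator_le_left A ⊤).trans (commutator_le_left K ⊤)
  have hτB : B ≤ B.comap τ := by
    rw [← map_le_iff_le_comap, hB, map_commutator]
    exact commutator_mono (map_le_iff_le_comap.mpr h.comm_le) le_top
  have hq := h.quot B hBK hτB
  have hmap : ⁅K.map (QuotientGroup.mk' B), (⊤ : Subgroup (Q ⧸ B))⁆ =
      A.map (QuotientGroup.mk' B) := by
    have := map_commutator K ⊤ (QuotientGroup.mk' B)
    rw [map_top_of_surjective _ (QuotientGroup.mk'_surjective B)] at this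
    exact this.symm
  have h1 := hq.eq_bot_of_central (hodd.of_dvd_nat (card_quotient_dvd_card B)) (by
    rw [hmap]
    rintro _ ⟨k, hk, rfl⟩
    rw [mem_center_iff]
    intro x
    obtain ⟨x, rfl⟩ := QuotientGroup.mk_surjective x
    rw [eq_comm, ← commutatorElement_eq_one_iff_mul_comm]
    exact (map_commutatorElement (QuotientGroup.mk' B) k x).symm.trans
      ((QuotientGroup.eq_one_iff _).mpr (commutator_mem_commutator hk (mem_top x))))
  rw [hmap, Subgroup.map_eq_bot_iff, QuotientGroup.ker_mk'] at h1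
  have h2 : ∀ n, A ≤ (⊤ : Subgroup Q).lowerCentralSeries n := by
    intro n
    induction n with
    | zero => exact le_top
    | succ n ih => exact h1.trans (commutator_mono ih le_rfl)
  obtain ⟨n, hn⟩ := Subgroup.nilpotent_iff_lowerCentralSeries.mp ‹Group.IsNilpotent Q›
  have h3 : A = ⊥ := le_bot_iff.mp (hn ▸ h2 n)
  intro k hk
  rw [mem_center_iff]
  intro x
  rw [eq_comm, ← commutatorElement_eq_one_iff_mul_comm, ← mem_bot, ← h3]
  exact commutator_mem_commutator hk (mem_top x)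

theorem exists_pow_eq_one [Finite Q] [Group.IsNilpotent Q] (hodd : Odd (Nat.card Q)) {p : ℕ}
    (hp : ∀ x : Q, x ^ p ∈ K) : ∃ x, x ∉ K ∧ x ^ p = 1 := by
  have hc := h.le_center hodd
  obtain ⟨x0, hx0⟩ := h.ex
  obtain ⟨k, hk, h0⟩ := h.exists_inverted hodd hc x0
  refine ⟨x0 * k, fun h' => hx0 (by simpa using K.mul_mem h' (K.inv_mem hk)), ?_⟩
  set x := x0 * k
  have e1 : τ x = x⁻¹ := (inv_eq_of_mul_eq_one_right h0).symm
  have e2 := h.fix_of_central hc (hp x)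
  rw [map_pow, e1, inv_pow, inv_eq_iff_mul_eq_one] at e2
  obtain ⟨m, hm⟩ := hodd
  have e4 : (x ^ p) ^ (2 * m + 1) = 1 := by rw [← hm]; exact pow_card_eq_one'
  rwa [pow_succ, pow_mul, pow_two, e2, one_pow, one_mul] at e4

end Hyp

end Cfsg.Agent.NCE
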