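import Mathlib
import Cfsg.Agent.NCE.PGrp
import Cfsg.Agent.S0081
import Cfsg.Agent.S0033
import Cfsg.Agent.S0205
import Cfsg.Agent.Grp.PFrattini
import Cfsg.Agent.FGS.ClassSize
import Cfsg.Agent.Transfer.PCompl

/-!
# Groups whose derived subgroup is a normal subgroup together with one conjugacy class
-/

set_option autoImplicit false
open scoped commutatorElement
open Subgroup

namespace Cfsg.Agent.NCE

variable {G : Type*} [Group G] [Finite G]

theorem index_add_card {K N : Subgroup G} (hKN : K ≤ N) {x : G}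
    (h : ∀ y, IsConj x y ↔ y ∈ N ∧ y ∉ K) :
    (centralizer ({x} : Set G)).index + Nat.card K = Nat.card N := by
  rw [← FGS.ncard_setOf_isConj]
  have e : {y : G | IsConj x y} = (N : Set G) \ (K : Set G) := Set.ext fun y => h y
  rw [e]
  exact Set.ncard_diff_add_ncard_of_subset hKN

/-- The class structure: `G' \ K` is a single conjugacy class. -/
structure Cls (K : Subgroup G) (g : G) : Prop where
  le : K ≤ _root_.commutator G
  mem : g ∈ _root_.commutator G
  notMem : g ∉ K
  conj : ∀ x ∈ _root_.commutator G, x ∉ K → IsConj g x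

namespace Cls

variable {K : Subgroup G} [hK : K.Normal] {g : G} (h : Cls K g)
include h

omit [Finite G] in
theorem isConj_iff {x : G} (hx : x ∈ _root_.commutator G) (hxK : x ∉ K) (y : G) :
    IsConj x y ↔ y ∈ _root_.commutator G ∧ y ∉ K := by
  constructor
  · intro hc
    obtain ⟨c, rfl⟩ := _root_.isConj_iff.mp hc
    exact ⟨Subgroup.Normal.conj_mem inferInstance x hx c,
      fun h' => hxK (by simpa [mul_assoc] using hK.conj_mem _ h' c⁻¹)⟩
  · rintro ⟨h1, h2⟩
    exact (h.conj x hx hxK).symm.trans (h.conj y h1 h2)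

theorem exists_prime : ∃ p a : ℕ, p.Prime ∧ (∀ x ∈ _root_.commutator G, x ^ p ∈ K) ∧
    ∀ x ∈ _root_.commutator G, x ∉ K → x ^ p ^ a = 1 := by
  have hm : orderOf (g : G ⧸ K) ≠ 1 := fun h' =>
    h.notMem ((QuotientGroup.eq_one_iff _).mp (orderOf_eq_one_iff.mp h'))
  obtain ⟨p, hp, m, hpm⟩ := Nat.exists_prime_and_dvd hm
  have hm0 : orderOf (g : G ⧸ K) ≠ 0 := (orderOf_pos _).ne'
  have hy : g ^ m ∉ K := by
    intro h'
    have h1 : (g : G ⧸ K) ^ m = 1 := by
      rw [← QuotientGroup.mk_pow]; exact (QuotientGroup.eq_one_iff _).mpr h'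
    have h2 := orderOf_dvd_of_pow_eq_one h1
    rw [hpm] at h2 hm0
    have hm1 : 0 < m := Nat.pos_of_ne_zero fun h0 => hm0 (by simp [h0])
    have := Nat.le_of_dvd hm1 h2
    nlinarith [hp.two_le]
  have hyp : (g ^ m) ^ p ∈ K := by
    rw [← QuotientGroup.eq_one_iff, ← pow_mul, QuotientGroup.mk_pow, mul_comm, ← hpm,
      pow_orderOf_eq_one]
  have hpow : ∀ x ∈ _root_.commutator G, x ^ p ∈ K := by
    intro x hx
    by_cases hxK : x ∈ K
    · exact K.pow_mem hxK p
    · obtain ⟨c, rfl⟩ := _root_.isConj_iff.mp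
        ((h.isConj_iff (pow_mem h.mem m) hy x).mpr ⟨hx, hxK⟩)
      rw [conj_pow]
      exact hK.conj_mem _ hyp c
  obtain ⟨a, r, hr, har⟩ := Nat.exists_eq_pow_mul_and_not_dvd (orderOf_pos g).ne' p hp.ne_one
  refine ⟨p, a, hp, hpow, fun x hx hxK => ?_⟩
  have hz : g ^ r ∉ K := by
    intro h'
    have h1 : (g : G ⧸ K) ^ r = 1 := by
      rw [← QuotientGroup.mk_pow]; exact (QuotientGroup.eq_one_iff _).mpr h'
    exact hr ((Dvd.intro _ hpm.symm).trans (orderOf_dvd_of_pow_eq_one h1))
  obtain ⟨c, rfl⟩ := _root_.isConj_iff.mp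
    ((h.isConj_iff (pow_mem h.mem r) hz x).mpr ⟨hx, hxK⟩)
  rw [conj_pow, ← pow_mul, mul_comm r, ← har, pow_orderOf_eq_one]
  group

omit [Finite G] in
theorem mem_map_iff (x : G) :
    (x : G ⧸ K) ∈ (_root_.commutator G).map (QuotientGroup.mk' K) ↔ x ∈ _root_.commutator G := by
  constructor
  · rintro ⟨k, hk, hkx⟩
    have h1 : k⁻¹ * x ∈ K := QuotientGroup.eq.mp hkx
    simpa using mul_mem hk (h.le h1)
  · intro hx
    exact ⟨x, hx, rfl⟩

omit [Finite G] h in
theorem isPGroup_map {p : ℕ} (hpow : ∀ x ∈ _root_.commutator G, x ^ p ∈ K) :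
    IsPGroup p ((_root_.commutator G).map (QuotientGroup.mk' K)) := by
  rintro ⟨_, x, hx, rfl⟩
  refine ⟨1, Subtype.ext ?_⟩
  change (x : G ⧸ K) ^ p ^ 1 = 1
  rw [pow_one, ← QuotientGroup.mk_pow]
  exact (QuotientGroup.eq_one_iff _).mpr (hpow x hx)

theorem comm_mem {p : ℕ} (hp : p.Prime) (hpow : ∀ x ∈ _root_.commutator G, x ^ p ∈ K)
    {x w : G} (hx : x ∈ _root_.commutator G) (hw : w ∈ _root_.commutator G) : ⁅x, w⁆ ∈ K := by
  have := Fact.mk hp
  by_cases hxK : x ∈ K
  · exact commutator_le_left K ⊤ (commutator_mem_commutator hxK (mem_top w))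
  have hN := isPGroup_map hpow
  have : Nontrivial ((_root_.commutator G).map (QuotientGroup.mk' K)) :=
    ⟨⟨⟨g, (h.mem_map_iff g).mpr h.mem⟩, 1, fun h' =>
      h.notMem ((QuotientGroup.eq_one_iff _).mp (congrArg Subtype.val h'))⟩⟩
  have := hN.center_nontrivial
  obtain ⟨⟨⟨_, y, hy, rfl⟩, hz⟩, hz1⟩ :=
    exists_ne (1 : center ((_root_.commutator G).map (QuotientGroup.mk' K)))
  have hyK : y ∉ K := fun h' =>
    hz1 (Subtype.ext (Subtype.ext ((QuotientGroup.eq_one_iff _).mpr h')))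
  have hyc : ∀ w ∈ _root_.commutator G, ⁅y, w⁆ ∈ K := by
    intro w hw
    have h1 := congrArg Subtype.val (mem_center_iff.mp hz ⟨w, (h.mem_map_iff w).mpr hw⟩)
    rw [← QuotientGroup.eq_one_iff]
    exact (map_commutatorElement (QuotientGroup.mk' K) y w).trans
      (commutatorElement_eq_one_iff_mul_comm.mpr h1.symm)
  obtain ⟨c, rfl⟩ := _root_.isConj_iff.mp ((h.isConj_iff hy hyK x).mpr ⟨hx, hxK⟩)
  have h2 := hK.conj_mem _ (hyc (c⁻¹ * w * c) (by
    simpa using Subgroup.Normal.conj_mem inferInstance w hw c⁻¹)) c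
  convert h2 using 1
  simp only [commutatorElement_def]; group

/-- every Sylow `p`-subgroup centralizes `G'` modulo `K`, and the class size is `|K| u`. -/
theorem sylow_facts {p : ℕ} [hp : Fact p.Prime] (hpow : ∀ x ∈ _root_.commutator G, x ^ p ∈ K)
    (S : Sylow p G) {x : G} (hx : x ∈ _root_.commutator G) (hxK : x ∉ K) :
    (∀ s ∈ (S : Subgroup G), ⁅x, s⁆ ∈ K) ∧
      Nat.card K ∣ (centralizer ({x} : Set G)).index := by
  set N := (_root_.commutator G).map (QuotientGroup.mk' K) with hN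
  have h1 := index_add_card h.le (h.isConj_iff hx hxK)
  have h2 : (centralizer ({(x : G ⧸ K)} : Set (G ⧸ K))).index + Nat.card (⊥ : Subgroup (G ⧸ K)) =
      Nat.card N := by
    refine index_add_card bot_le fun y => ?_
    obtain ⟨y, rfl⟩ := QuotientGroup.mk_surjective y
    rw [mem_bot, QuotientGroup.eq_one_iff, hN, h.mem_map_iff, ← h.isConj_iff hx hxK]
    constructor
    · intro hc
      obtain ⟨c, hc⟩ := _root_.isConj_iff.mp hc
      obtain ⟨c, rfl⟩ := QuotientGroup.mk_surjective c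
      have h3 : (c * x * c⁻¹)⁻¹ * y ∈ K := QuotientGroup.eq.mp hc
      have h4 := (h.isConj_iff hx hxK (c * x * c⁻¹)).mp (_root_.isConj_iff.mpr ⟨c, rfl⟩)
      refine (h.isConj_iff hx hxK y).mpr ⟨?_, fun h' => h4.2 ?_⟩
      · have h5 := mul_mem h4.1 (h.le h3)
        rwa [mul_inv_cancel_left] at h5
      · have h5 := mul_mem h' (inv_mem h3)
        rwa [mul_inv_rev, inv_inv, mul_inv_cancel_left] at h5
    · exact (QuotientGroup.mk' K).map_isConj
  refine ⟨?_, (Nat.dvd_add_left (dvd_refl _)).mp (h1 ▸ card_dvd_of_le h.le)⟩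
  rw [card_bot] at h2
  obtain ⟨n, hn⟩ := IsPGroup.iff_card.mp (isPGroup_map hpow)
  have hidx : (centralizer ({(x : G ⧸ K)} : Set (G ⧸ K))).index ≠ 0 := index_ne_zero_of_finite
  have hn0 : n ≠ 0 := by
    rintro rfl
    rw [← hN, pow_zero] at hn
    omega
  have hnd : ¬ p ∣ (centralizer ({(x : G ⧸ K)} : Set (G ⧸ K))).index := by
    intro hd
    have h3 : p ∣ Nat.card N := hN ▸ hn ▸ dvd_pow_self p hn0
    rw [← h2] at h3
    exact hp.out.one_lt.ne' (Nat.dvd_one.mp ((Nat.dvd_add_right hd).mp h3))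
  set C := (centralizer ({(x : G ⧸ K)} : Set (G ⧸ K))).comap (QuotientGroup.mk' K) with hC
  have hmemC : ∀ a, a ∈ C ↔ ⁅x, a⁆ ∈ K := by
    intro a
    rw [hC, mem_comap, mem_centralizer_singleton_iff, ← QuotientGroup.eq_one_iff,
      eq_comm, ← commutatorElement_eq_one_iff_mul_comm]
    exact Eq.congr_left (map_commutatorElement (QuotientGroup.mk' K) x a).symm
  have hCn : C.Normal := by
    have hle : _root_.commutator G ≤ C := fun w hw =>
      (hmemC w).mpr (h.comm_mem hp.out hpow hx hw)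
    refine ⟨fun a ha c => ?_⟩
    have h3 : ⁅c, a⁆ ∈ C := hle (commutator_mem_commutator (mem_top c) (mem_top a))
    have := mul_mem h3 ha
    simpa [commutatorElement_def] using this
  have hCi : ¬ p ∣ C.index := by
    rwa [hC, index_comap_of_surjective _ (QuotientGroup.mk'_surjective K)]
  obtain ⟨P, -, hP⟩ := FGS.exists_sylow_le_of_not_dvd_index hCi (U := ⊥) IsPGroup.of_bot bot_le
  obtain ⟨c, rfl⟩ := MulAction.exists_smul_eq G P S
  intro s hs
  rw [← hmemC]
  rw [Sylow.coe_subgroup_smul, mem_pointwise_smul_iff_inv_smul_mem] at hs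
  have := hCn.conj_mem _ (hP hs) c
  simpa [mul_assoc] using this

theorem camina {p : ℕ} [hp : Fact p.Prime] (hpow : ∀ x ∈ _root_.commutator G, x ^ p ∈ K)
    (S : Sylow p G) (x : S) (hx : (x : G) ∈ _root_.commutator G) (hxK : (x : G) ∉ K)
    (k : S) (hk : (k : G) ∈ K) : ∃ y : S, y * x * y⁻¹ = x * k := by
  obtain ⟨h1, h2⟩ := h.sylow_facts hpow S hx hxK
  set K1 := K.subgroupOf (S : Subgroup G) with hK1
  set C1 := centralizer ({x} : Set S) with hC1
  have d1 : Nat.card K1 ∣ Nat.card K := by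
    rw [hK1, ← inf_subgroupOf_right, Nat.card_congr (subgroupOfEquivOfLe inf_le_right).toEquiv]
    exact card_dvd_of_le inf_le_left
  have d2 : Nat.card C1 ∣ Nat.card (centralizer ({(x : G)} : Set G)) := by
    rw [hC1, FGS.centralizer_singleton_subgroupOf, ← inf_subgroupOf_right,
      Nat.card_congr (subgroupOfEquivOfLe inf_le_right).toEquiv]
    exact card_dvd_of_le inf_le_left
  have d3 : Nat.card C1 * Nat.card K1 ∣ Nat.card G := by
    rw [← card_mul_index (centralizer ({(x : G)} : Set G))]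
    exact mul_dvd_mul d2 (d1.trans h2)
  obtain ⟨a, ha⟩ := IsPGroup.iff_card.mp (S.isPGroup'.to_subgroup K1)
  obtain ⟨b, hb⟩ := IsPGroup.iff_card.mp (S.isPGroup'.to_subgroup C1)
  have d4 : Nat.card C1 * Nat.card K1 ∣ Nat.card S := by
    rw [ha, hb, ← pow_add] at d3 ⊢
    exact S.pow_dvd_card_of_pow_dvd_card d3
  have d5 : Nat.card K1 ≤ C1.index := by
    rw [← card_mul_index C1] at d4
    exact Nat.le_of_dvd (Nat.pos_of_ne_zero index_ne_zero_of_finite)
      (Nat.dvd_of_mul_dvd_mul_left Nat.card_pos d4)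
  have hsub : {y : S | IsConj x y} ⊆ (fun k => x * k) '' (K1 : Set S) := by
    intro y hy
    obtain ⟨c, rfl⟩ := _root_.isConj_iff.mp hy
    refine ⟨x⁻¹ * (c * x * c⁻¹), ?_, by group⟩
    change (x : G)⁻¹ * (c * x * (c : G)⁻¹) ∈ K
    have h3 := hK.conj_mem _ (inv_mem (h1 c c.2)) (x : G)⁻¹
    convert h3 using 1
    simp only [commutatorElement_def]; group
  have heq := Set.eq_of_subset_of_ncard_le hsub (by
    rw [FGS.ncard_setOf_isConj, Set.ncard_image_of_injective _ (mul_right_injective x)]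
    exact d5)
  have : x * k ∈ {y : S | IsConj x y} := heq ▸ ⟨k, hk, rfl⟩
  exact _root_.isConj_iff.mp this

theorem exists_order_p {p : ℕ} [hp : Fact p.Prime] (hp2 : p ≠ 2)
    (hpow : ∀ x ∈ _root_.commutator G, x ^ p ∈ K)
    (hZ : ∀ y, (∀ a, ⁅y, a⁆ ∈ K) → y ∈ _root_.commutator G)
    (S : Sylow p G) (hgS : g ∈ (S : Subgroup G)) :
    ∃ x ∈ _root_.commutator G, x ∉ K ∧ x ^ p = 1 := by
  have hH : (_root_.commutator G).Normal := inferInstance
  have hcm : ∀ a b : G, ⁅a, b⁆ ∈ _root_.commutator G := fun a b =>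
    commutator_mem_commutator (mem_top a) (mem_top b)
  obtain ⟨m, hm⟩ := hp.out.odd_of_ne_two hp2
  -- work in the quotient
  let π := QuotientGroup.mk' K
  have hπ : ∀ x, π x = 1 ↔ x ∈ K := fun x => QuotientGroup.eq_one_iff x
  have hab : ∀ x ∈ _root_.commutator G, ∀ w ∈ _root_.commutator G, π x * π w = π w * π x := by
    intro x hx w hw
    rw [← commutatorElement_eq_one_iff_mul_comm, ← map_commutatorElement, hπ]
    exact h.comm_mem hp.out hpow hx hw
  have hsq : ∀ x ∈ _root_.commutator G, π x * π x = 1 → π x = 1 := by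
    intro x hx h2
    have h3 : π x ^ p = 1 := by rw [← map_pow, hπ]; exact hpow x hx
    rwa [hm, pow_succ, pow_mul, pow_two, h2, one_pow, one_mul] at h3
  obtain ⟨t, ht⟩ := _root_.isConj_iff.mp (h.conj g⁻¹ (inv_mem h.mem) fun h' =>
    h.notMem (by simpa using inv_mem h'))
  have hinv : ∀ x ∈ _root_.commutator G, π t * π x * (π t)⁻¹ = (π x)⁻¹ := by
    intro x hx
    by_cases hxK : x ∈ K
    · rw [(hπ x).mpr hxK]; group
    obtain ⟨c, rfl⟩ := _root_.isConj_iff.mp (h.conj x hx hxK)
    have e1 : t * (c * g * c⁻¹) * t⁻¹ = ⁅t, c⁆ * (c * g * c⁻¹)⁻¹ * ⁅t, c⁆⁻¹ := by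
      calc t * (c * g * c⁻¹) * t⁻¹ = ⁅t, c⁆ * (c * (t * g * t⁻¹) * c⁻¹) * ⁅t, c⁆⁻¹ := by
            simp only [commutatorElement_def]; group
        _ = _ := by rw [ht]; group
    rw [← map_inv, ← map_mul, ← map_mul, e1, map_mul, map_mul, hab _ (hcm t c) _ (inv_mem hx),
      map_inv π ⁅t, c⁆, mul_inv_cancel_right, map_inv]
  -- the Sylow subgroup lies in the derived subgroup
  have hSH : (S : Subgroup G) ≤ _root_.commutator G := by
    have hcen : ∀ y ∈ (S : Subgroup G), ∀ x ∈ _root_.commutator G, π x * π y = π y * π x := by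
      intro y hy x hx
      by_cases hxK : x ∈ K
      · rw [(hπ x).mpr hxK]; group
      rw [← commutatorElement_eq_one_iff_mul_comm, ← map_commutatorElement, hπ]
      exact (h.sylow_facts hpow S hx hxK).1 y hy
    intro y hy
    have hn := hcm t y
    set n := ⁅t, y⁆ with hn'
    have hnm : n ^ (m + 1) ∈ _root_.commutator G := pow_mem hn _
    set u := n ^ (m + 1) with hu
    have hu2 : π u * π u = π n := by
      have h3 : π n ^ p = 1 := by rw [← map_pow, hπ]; exact hpow n hn
      rw [hu, map_pow, ← pow_add, show m + 1 + (m + 1) = p + 1 by omega, pow_succ, h3, one_mul]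
    have hty : π t * π y * (π t)⁻¹ = π n * π y := by
      rw [hn', map_commutatorElement, commutatorElement_def]; group
    have hfix : π t * π (u * y) * (π t)⁻¹ = π (u * y) := by
      calc π t * π (u * y) * (π t)⁻¹ = (π t * π u * (π t)⁻¹) * (π t * π y * (π t)⁻¹) := by
            rw [map_mul]; group
        _ = _ := by rw [hinv u hnm, hty, ← hu2, map_mul]; group
    have hcen' : ∀ x ∈ _root_.commutator G, π x * π (u * y) = π (u * y) * π x := by
      intro x hx
      rw [map_mul, ← mul_assoc, hab x hx u hnm, mul_assoc, hcen y hy x hx, mul_assoc]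
    set y' := u * y with hy'
    have hy'H : y' ∈ _root_.commutator G := by
      refine hZ y' fun a => ?_
      rw [← hπ]
      refine hsq _ (hcm y' a) ?_
      have e1 := hinv _ (hcm y' a)
      have e2 := hcen' _ (hcm a⁻¹ t)
      rw [← eq_inv_iff_mul_eq_one, ← e1]
      simp only [map_commutatorElement] at e2 ⊢
      simp only [commutatorElement_def, map_inv] at e2 ⊢
      set Y := π y'
      set T := π t
      set A := π a
      have e3 : T * Y = Y * T := by rw [← mul_inv_eq_iff_eq_mul]; exact hfix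
      have e4 : T * Y⁻¹ = Y⁻¹ * T := by
        calc T * Y⁻¹ = Y⁻¹ * (Y * T) * Y⁻¹ := by group
          _ = _ := by rw [← e3]; group
      calc Y * A * Y⁻¹ * A⁻¹ = Y * A * Y⁻¹ * ((A⁻¹ * T * A⁻¹⁻¹ * T⁻¹) * Y) * Y⁻¹ *
            (T * A⁻¹ * T⁻¹) := by group
        _ = Y * A * Y⁻¹ * (Y * (A⁻¹ * T * A⁻¹⁻¹ * T⁻¹)) * Y⁻¹ * (T * A⁻¹ * T⁻¹) := by rw [e2]
        _ = (Y * T) * A * T⁻¹ * (Y⁻¹ * T) * A⁻¹ * T⁻¹ := by group
        _ = _ := by rw [← e3, ← e4]; group
    simpa [hy'] using mul_mem (inv_mem hnm) hy'H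
  -- an inverting element normalizing `S`
  have hfr := S.normalizer_sup_eq_top' hSH
  obtain ⟨t', ht', w, hw, rfl⟩ : ∃ t' ∈ normalizer ((S : Subgroup G) : Set G),
      ∃ w ∈ _root_.commutator G, t' * w = t := by
    have : t ∈ ((normalizer ((S : Subgroup G) : Set G) ⊔ _root_.commutator G : Subgroup G) :
        Set G) := by
      have h' : t ∈ (⊤ : Subgroup G) := mem_top t
      rw [← hfr] at h'
      exact h'
    rw [mul_normal] at this
    exact this
  have hinv' : ∀ x ∈ _root_.commutator G, π t' * π x * (π t')⁻¹ = (π x)⁻¹ := by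
    intro x hx
    rw [← hinv x hx, map_mul, mul_assoc (π t') (π w), hab w hw x hx]
    group
  let τ : S →* S := ((S : Subgroup G).normalizerMonoidHom ⟨t', ht'⟩ : MulAut S)
  have hτ : ∀ x : S, ((τ x : S) : G) = t' * x * t'⁻¹ := fun x => rfl
  have hyp : Hyp (K.subgroupOf (S : Subgroup G)) τ := by
    refine ⟨inferInstance, ⟨⟨g, hgS⟩, h.notMem⟩, fun x y => ?_, fun x => ?_, fun x hx k hk => ?_⟩
    · exact h.comm_mem hp.out hpow (hSH x.2) (hSH y.2)
    · rw [mem_subgroupOf, ← hπ, Subgroup.coe_mul, hτ, map_mul, map_mul, map_mul, map_inv,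
        hinv' _ (hSH x.2), mul_inv_cancel]
    · exact h.camina hpow S x (hSH x.2) hx k hk
  have := S.isPGroup'.isNilpotent
  obtain ⟨b, hb⟩ := IsPGroup.iff_card.mp S.isPGroup'
  obtain ⟨x, hx, hxp⟩ := hyp.exists_pow_eq_one (p := p) (by rw [hb]; exact Odd.pow ⟨m, hm⟩)
    fun x => hpow x (hSH x.2)
  exact ⟨x, hSH x.2, hx, congrArg Subtype.val hxp⟩

theorem isSolvable (hZ : ∀ y, (∀ a, ⁅y, a⁆ ∈ K) → y ∈ _root_.commutator G) :
    Group.IsSolvable G := by
  obtain ⟨p, a, hp, hpow, hpe⟩ := h.exists_prime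
  have := Fact.mk hp
  obtain ⟨S, hgS⟩ := FGS.exists_sylow_mem (p := p) ⟨a, hpe g h.mem h.notMem⟩
  have hT : HasNormalPComplement p K := by
    refine S0081.result S K ?_
    rintro k ⟨hk, hkS⟩
    obtain ⟨y, hy⟩ := h.camina hpow S ⟨g, hgS⟩ h.mem h.notMem ⟨k, hkS⟩ hk
    refine ⟨⟨k, hkS⟩, Grp.PFrattini.commutator_le_frattini S.isPGroup' ?_, rfl⟩
    have e : (⟨k, hkS⟩ : S) = ⁅(⟨g, hgS⟩ : S)⁻¹, y⁆ := by
      rw [commutatorElement_def, inv_inv, mul_assoc, mul_assoc, ← mul_assoc y, hy]; group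
    rw [e]
    exact commutator_mem_commutator (mem_top _) (mem_top _)
  have hcop := Transfer.hasNormalPComplement_iff_coprime.mp hT
  have hM : Group.IsSolvable (pResidual p K) := by
    by_cases hp2 : p = 2
    · subst hp2
      exact S0205.result (Nat.coprime_two_right.mp hcop)
    obtain ⟨x, hx, hxK, hxp⟩ := h.exists_order_p hp2 hpow hZ S hgS
    set M := (pResidual p K).map K.subtype with hMdef
    have hMn : M.Normal := inferInstance
    have hMc : (Nat.card M).Coprime p := by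
      rwa [hMdef, card_map_of_injective K.subtype_injective]
    let φ : MulAut M := MulAut.conjNormal x
    have hfpf : MonoidHom.FixedPointFree (φ : M →* M) := by
      intro m hm
      have e1 : x * m * x⁻¹ = m := congrArg Subtype.val hm
      have hmK : (m : G) ∈ K := map_subtype_le _ m.2
      have hc : Commute x (m : G) := by
        rw [Commute, SemiconjBy, ← mul_inv_eq_iff_eq_mul]; exact e1
      have e2 := hpe (x * m) (mul_mem hx (h.le hmK)) fun h' =>
        hxK (by simpa using mul_mem h' (inv_mem hmK))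
      rw [hc.mul_pow, hpe x hx hxK, one_mul] at e2
      have e3 := Transfer.coprime_orderOf_of_mem hMc m.2
      have e4 := Nat.Coprime.eq_one_of_dvd (e3.pow_right a) (orderOf_dvd_of_pow_eq_one e2)
      exact Subtype.ext (orderOf_eq_one_iff.mp e4)
    have hφp : φ ^ p = 1 := by rw [← map_pow, hxp, map_one]
    have hMs : Group.IsSolvable M := by
      rcases (Nat.dvd_prime hp).mp (orderOf_dvd_of_pow_eq_one hφp) with h1 | h1
      · have h2 := orderOf_eq_one_iff.mp h1
        have : Subsingleton M := ⟨fun u v => by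
          rw [hfpf u (by rw [h2]; rfl), hfpf v (by rw [h2]; rfl)]⟩
        infer_instance
      · have := S0033.result φ hfpf p hp h1
        infer_instance
    exact Group.isSolvable_of_isSolvable_injective
      (f := ((pResidual p K).equivMapOfInjective K.subtype K.subtype_injective).toMonoidHom)
      ((pResidual p K).equivMapOfInjective K.subtype K.subtype_injective).injective
  have hKs : Group.IsSolvable K := by
    have := (Transfer.isPGroup_quotient_pResidual (p := p) (G := K)).isNilpotent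
    exact FGS.isSolvable_of_normal_of_quotient (pResidual p K)
  have hQ : Group.IsSolvable (G ⧸ K) := by
    set N := (_root_.commutator G).map (QuotientGroup.mk' K) with hN
    have hNn : N.Normal := Subgroup.Normal.map inferInstance _ (QuotientGroup.mk'_surjective K)
    have := (isPGroup_map hpow).isNilpotent
    have : Group.IsSolvable ((G ⧸ K) ⧸ N) := by
      refine Group.isSolvable_of_comm fun u v => ?_
      obtain ⟨u, rfl⟩ := QuotientGroup.mk_surjective u
      obtain ⟨v, rfl⟩ := QuotientGroup.mk_surjective v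
      obtain ⟨u, rfl⟩ := QuotientGroup.mk_surjective u
      obtain ⟨v, rfl⟩ := QuotientGroup.mk_surjective v
      rw [← commutatorElement_eq_one_iff_mul_comm]
      refine (map_commutatorElement (QuotientGroup.mk' N) _ _).symm.trans
        ((QuotientGroup.eq_one_iff _).mpr ⟨⁅u, v⁆, ?_, map_commutatorElement _ u v⟩)
      exact commutator_mem_commutator (mem_top _) (mem_top _)
    exact FGS.isSolvable_of_normal_of_quotient N
  exact FGS.isSolvable_of_normal_of_quotient K

end Cls

end Cfsg.Agent.NCE
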